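import Mathlib
import Cfsg.Agent.Cl.GFSmall
import Cfsg.Agent.Cl.Transport

/-! Explicit elements of `A₆` and `L₃(4)`. -/

set_option autoImplicit false

open Matrix Equiv

namespace Cfsg.Agent.O3

section

variable {S A : Type*} [Group S] [Group A]

/-- Two elements of order five generating a group that contains `⟨d e, y⟩ ≅ E₉`. -/
def C5 (R : S → S → Prop) (d e w y : S) : Prop :=
  R (d ^ 5) 1 ∧ ¬ R d 1 ∧ R (e ^ 5) 1 ∧ ¬ R e 1 ∧ R ((d * e) ^ 3) 1 ∧ ¬ R (d * e) 1 ∧ R (w * e) (d * d) ∧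
    R (w * (d * e)) (y * w) ∧ R (d * e * y) (y * (d * e)) ∧ ¬ R y (d * e) ∧ ¬ R (y * (d * e)) 1

/-- The conjugates of `a` under `d` of order five commute. -/
def Q5 (R : S → S → Prop) (a d b c : S) : Prop :=
  R (d ^ 5) 1 ∧ ¬ R d 1 ∧ R (d * a) (b * d) ∧ R (d * b) (c * d) ∧ R (a * b) (b * a) ∧ R (a * c) (c * a)

/-- An involution lying in two elementary groups that do not commute. -/
def CL (R : S → S → Prop) (a z d b c d' b' c' : S) : Prop :=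
  R (a * a) 1 ∧ R (z ^ 3) 1 ∧ ¬ R z 1 ∧ R (a * z * a * z) 1 ∧ Q5 R a d b c ∧ Q5 R a d' b' c' ∧
    ¬ R (b * b') (b' * b)

variable {R : S → S → Prop} (π : S →* A) (h : ∀ a b, R a b ↔ π a = π b)
include h

theorem C5.map {d e w y : S} (c : C5 R d e w y) : C5 Eq (π d) (π e) (π w) (π y) := by
  simpa only [C5, h, map_mul, map_pow, map_one] using c

theorem CL.map {a z d b c d' b' c' : S} (k : CL R a z d b c d' b' c') :
    CL Eq (π a) (π z) (π d) (π b) (π c) (π d') (π b') (π c') := by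
  simpa only [CL, Q5, h, map_mul, map_pow, map_one] using k

end

theorem a6_c5 : ∃ d e w y : alternatingGroup (Fin 6), C5 Eq d e w y :=
  ⟨⟨c[0, 1, 2, 3, 4], Perm.mem_alternatingGroup.2 (by decide +kernel)⟩, ⟨c[1, 5, 4, 3, 2], Perm.mem_alternatingGroup.2 (by decide +kernel)⟩,
    ⟨c[0, 2] * c[1, 4, 5, 3], Perm.mem_alternatingGroup.2 (by decide +kernel)⟩, ⟨c[2, 4, 3], Perm.mem_alternatingGroup.2 (by decide +kernel)⟩, by
      unfold C5; decide +kernel⟩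

theorem a6_two : ∃ z p q : alternatingGroup (Fin 6), z * z = 1 ∧ z ≠ 1 ∧ p ^ 3 = 1 ∧ p ≠ 1 ∧ q ^ 3 = 1 ∧
    q ≠ 1 ∧ z * p * z * p = 1 ∧ ∀ c, c ^ 3 = 1 → z * c * z * c = 1 → p * c = c * p ∨ q * c = c * q := by
  have k : ∀ c : Perm (Fin 6), c * c * c = 1 → c[0, 1] * c[2, 3] * c * (c[0, 1] * c[2, 3]) * c = 1 →
      c[2, 3, 4] * c = c * c[2, 3, 4] ∨ c[2, 3, 5] * c = c * c[2, 3, 5] := by decide +kernel
  refine ⟨⟨c[0, 1] * c[2, 3], Perm.mem_alternatingGroup.2 (by decide +kernel)⟩, ⟨c[2, 3, 4], Perm.mem_alternatingGroup.2 (by decide +kernel)⟩,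
    ⟨c[2, 3, 5], Perm.mem_alternatingGroup.2 (by decide +kernel)⟩, by decide +kernel, by decide +kernel, by decide +kernel,
    by decide +kernel, by decide +kernel, by decide +kernel, by decide +kernel, fun c h1 h2 => ?_⟩
  rw [pow_three'] at h1
  exact (k c.1 (congrArg Subtype.val h1) (congrArg Subtype.val h2)).imp Subtype.ext Subtype.ext

open Cl

/-- The matrix over `GF4` with the given codes. -/
def mx (l : List (Fin 4)) : Matrix (Fin 3) (Fin 3) GF4 := Matrix.of fun i j => l.getD (3 * i + j) 0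

/-- The element of `SL₃(4)` with the given codes. -/
def sx (l : List (Fin 4)) (h : mx l 0 0 * mx l 1 1 * mx l 2 2 - mx l 0 0 * mx l 1 2 * mx l 2 1 -
    mx l 0 1 * mx l 1 0 * mx l 2 2 + mx l 0 1 * mx l 1 2 * mx l 2 0 + mx l 0 2 * mx l 1 0 * mx l 2 1 -
    mx l 0 2 * mx l 1 1 * mx l 2 0 = 1 := by decide +kernel) : Matrix.SpecialLinearGroup (Fin 3) GF4 :=
  ⟨mx l, (det_fin_three _).trans h⟩

theorem psl_eq (a b : Matrix.SpecialLinearGroup (Fin 3) GF4) : (∃ r : GF4, a.1 = r • b.1) ↔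
    QuotientGroup.mk' (Subgroup.center _) a = QuotientGroup.mk' (Subgroup.center _) b := by
  rw [QuotientGroup.mk'_apply, QuotientGroup.mk'_apply, eq_comm, QuotientGroup.eq]
  have k : ∀ x y : Matrix.SpecialLinearGroup (Fin 3) GF4, (x * y).1 = x.1 * y.1 := fun _ _ => rfl
  refine ⟨fun ⟨r, h⟩ => Subgroup.mem_center_iff.2 fun g => Subtype.ext ?_, fun h => ?_⟩
  · have : (b⁻¹ * a).1 = r • (1 : Matrix (Fin 3) (Fin 3) GF4) := by
      rw [k, h, Matrix.mul_smul, ← k, inv_mul_cancel]; rfl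
    rw [k, k _ g, this]; simp
  · obtain ⟨r, -, h⟩ := Matrix.SpecialLinearGroup.mem_center_iff.1 h
    refine ⟨r, ?_⟩
    rw [← mul_inv_cancel_left b a, k, ← show _ = (b⁻¹ * a).1 from h]
    ext i j
    simp [scalar_apply, mul_comm]

theorem l34 {F : Type*} [Field F] [Fintype F] (hF : Fintype.card F = 4) :
    (∃ d e w y : ProjectiveSpecialLinearGroup (Fin 3) F, C5 Eq d e w y) ∧
      ∃ a z d b c d' b' c' : ProjectiveSpecialLinearGroup (Fin 3) F, CL Eq a z d b c d' b' c' := by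
  obtain ⟨σ⟩ := nonempty_ringEquiv_GF4 F hF
  let e := (pslMapEquiv (Fin 3) σ).symm
  have h1 : C5 (fun a b : Matrix.SpecialLinearGroup (Fin 3) GF4 => ∃ r : GF4, a.1 = r • b.1)
      (sx [1, 0, 0, 0, 0, 1, 0, 1, 2]) (sx [2, 0, 1, 1, 1, 2, 0, 2, 1]) (sx [2, 2, 1, 2, 3, 1, 1, 2, 0])
      (sx [2, 2, 2, 0, 1, 0, 0, 3, 3]) := by unfold C5; decide +kernel
  have h2 : CL (fun a b : Matrix.SpecialLinearGroup (Fin 3) GF4 => ∃ r : GF4, a.1 = r • b.1)
      (sx [1, 0, 1, 0, 1, 0, 0, 0, 1]) (sx [0, 0, 1, 0, 1, 0, 1, 0, 1]) (sx [1, 0, 0, 0, 0, 1, 0, 1, 2])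
      (sx [1, 1, 0, 0, 1, 0, 0, 0, 1]) (sx [1, 2, 1, 0, 1, 0, 0, 0, 1]) (sx [0, 1, 0, 1, 2, 0, 0, 0, 1])
      (sx [1, 0, 0, 0, 1, 1, 0, 0, 1]) (sx [1, 0, 1, 0, 1, 2, 0, 0, 1]) := by
    unfold CL Q5; decide +kernel
  exact ⟨⟨_, _, _, _, (h1.map _ psl_eq).map (e : _ →* _) fun _ _ => e.injective.eq_iff.symm⟩,
    _, _, _, _, _, _, _, _, (h2.map _ psl_eq).map (e : _ →* _) fun _ _ => e.injective.eq_iff.symm⟩

end Cfsg.Agent.O3
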